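import Cfsg.Agent.IterCores.Group
import Mathlib

/-!
A non-trivial normal subgroup of the branch parabolic subgroup of `E8(2)` contains a root element.
-/

set_option autoImplicit false

namespace Cfsg.Agent.IterCores

open Cfsg.Lie Cfsg.Agent.Chev
open scoped Matrix MatrixGroups

local notation "GE" => GL chevE8.Idx (ZMod 2)
local notation "sp" => spanGroup chevE8 (ZMod 2)

/-- The positive roots of height at least `m`. -/
def lay (m : ℤ) (r : ℕ) : Prop := chevE8.IsPosRoot r ∧ m ≤ CE.ht r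

/-- An upward closed set of positive roots. -/
def UpSet (P : ℕ → Prop) : Prop :=
  (∀ r, P r → chevE8.IsPosRoot r) ∧ ∀ a r, chevE8.IsPosRoot a → P r → ∀ c ∈ chevE8.commTerms a r, P c.1

theorem UpSet.closedSet {P : ℕ → Prop} (h : UpSet P) : ClosedSet chevE8 P :=
  ⟨h.1, fun r s hr hs => h.2 r s (h.1 r hr) hs⟩

theorem comm_ht {a r : ℕ} (ha : chevE8.IsPosRoot a) (hr : chevE8.IsPosRoot r) {c : ℕ × ℤ × ℕ × ℕ}
    (hc : c ∈ chevE8.commTerms a r) :
    chevE8.IsPosRoot c.1 ∧ CE.ht r + 1 ≤ CE.ht c.1 ∧ CE.ht a + 1 ≤ CE.ht c.1 := by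
  obtain ⟨h1, h2, h3⟩ := CE.commTerms_ht ha.1 hr.1 c hc
  have p1 := CE.ht_pos ha
  have p2 := CE.ht_pos hr
  refine ⟨(CE.commTerms_pos ha hr c hc), ?_, ?_⟩ <;> rw [h3] <;>
    nlinarith [show (1 : ℤ) ≤ (c.2.2.1 : ℤ) from by exact_mod_cast h1,
      show (1 : ℤ) ≤ (c.2.2.2 : ℤ) from by exact_mod_cast h2]

theorem upSet_lay (m : ℤ) : UpSet (lay m) :=
  ⟨fun _ h => h.1, fun a r ha hr c hc => by
    obtain ⟨h1, h2, -⟩ := comm_ht ha hr.1 hc
    exact ⟨h1, by have := hr.2; omega⟩⟩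

theorem upSet_drop {m : ℤ} {r : ℕ} (hr : CE.ht r ≤ m) : UpSet (fun s => lay m s ∧ s ≠ r) :=
  ⟨fun _ h => h.1.1, fun a s ha hs c hc => by
    obtain ⟨h1, h2, -⟩ := comm_ht ha hs.1.1 hc
    have := hs.1.2
    refine ⟨⟨h1, by omega⟩, fun e => ?_⟩
    rw [e] at h2
    omega⟩

theorem pos_normalises {P : ℕ → Prop} (h : UpSet P) :
    chevE8.posUnipotent (ZMod 2) ≤ Subgroup.normalizer (sp P : Set GE) := by
  show sp chevE8.IsPosRoot ≤ _
  refine CE.span_le fun a ha t => ?_
  have key : ∀ (t : ZMod 2) (s : ℕ), P s → ∀ v : ZMod 2, CE.xu a t * CE.xu s v * (CE.xu a t)⁻¹ ∈ sp P := by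
    intro t s hs v
    by_cases he : s = a
    · subst he
      rw [CE.xu_inv, CE.xu_add, CE.xu_add]
      exact CE.xu_mem_span hs _
    rw [CE.conj_xu ha.1 (h.1 s hs).1 he (fun e => CE.not_pos_and_neg (h.1 s hs) (e ▸ CE.negRoot_neg ha))]
    refine mul_mem (CE.xu_mem_span hs _) (CE.wu_mem_span _ ?_)
    intro p hp
    obtain ⟨c, hc, rfl⟩ := List.mem_map.mp hp
    exact h.2 a s ha hs c hc
  refine CE.mem_normalizer_span (key t) fun s hs v => ?_
  have := key (-t) s hs v
  rwa [← CE.xu_inv, inv_inv] at this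

theorem mem_of_xu_mem {P : ℕ → Prop} (h : UpSet P) {r : ℕ} (hr : chevE8.IsPosRoot r) {v : ZMod 2} (hv : v ≠ 0)
    (hmem : CE.xu r v ∈ sp P) : P r := by
  obtain ⟨t, ht, e⟩ := CE.exists_prodU h.closedSet hmem
  have := CE.prodU_inj (t := fun s => if s = r then v else 0) (t' := t) (by rw [CE.prodU_single hr, e]) r hr
  rw [if_pos rfl] at this
  exact ht r (this ▸ hv)

/-- An element of a layer is outside the next one only through a root of that height. -/
theorem exists_coord {m : ℤ} {z : GE} (hz : z ∈ sp (lay m)) (hn : z ∉ sp (lay (m + 1))) :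
    ∃ r, chevE8.IsPosRoot r ∧ CE.ht r = m ∧ z ∉ sp (fun s => lay m s ∧ s ≠ r) ∧
      ∃ a ∈ sp (fun s => lay m s ∧ s ≠ r), z = a * CE.xu r 1 := by
  obtain ⟨t, ht, e⟩ := CE.exists_prodU (upSet_lay m).closedSet hz
  obtain ⟨r, htr, hr, hrm⟩ : ∃ r, t r ≠ 0 ∧ chevE8.IsPosRoot r ∧ CE.ht r = m := by
    by_contra hc
    push Not at hc
    refine hn (e ▸ CE.prodU_mem (P := lay (m + 1)) t fun s hs hts => ⟨hs, ?_⟩)
    have := (ht s hts).2
    have := hc s hts hs
    omega
  have hup := upSet_drop (m := m) (r := r) hrm.le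
  have hnot : z ∉ sp (fun s => lay m s ∧ s ≠ r) := by
    intro h
    obtain ⟨t', ht', e'⟩ := CE.exists_prodU hup.closedSet h
    have := CE.prodU_inj (t := t) (t' := t') (by rw [← e, e']) r hr
    exact (ht' r (this ▸ htr)).2 rfl
  refine ⟨r, hr, hrm, hnot, ?_⟩
  have hle : sp (lay m) ≤ sp (fun s => lay m s ∧ s ≠ r) ⊔ sp (fun s => s = r) := by
    refine CE.span_le fun s hs v => ?_
    by_cases hsr : s = r
    · exact Subgroup.mem_sup_right (CE.xu_mem_span (P := fun s => s = r) hsr v)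
    · exact Subgroup.mem_sup_left (CE.xu_mem_span (P := fun s => lay m s ∧ s ≠ r) ⟨hs, hsr⟩ v)
  have hH : sp (fun s => s = r) ≤ chevE8.posUnipotent (ZMod 2) :=
    CE.span_le fun s hs v => CE.xu_mem_pos (hs ▸ hr) v
  obtain ⟨a, ha, b, hb, hab⟩ := (Cert.mem_sup_of_normalised (hH.trans (pos_normalises hup))).mp (hle hz)
  have hb' : ∃ v, b = CE.xu r v := by
    clear hab
    induction hb using Subgroup.closure_induction with
    | mem x hx =>
      obtain ⟨s, v, hs, e2⟩ := hx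
      rw [CE.eq_xu.mp e2]
      exact ⟨v, by rw [show s = r from hs]⟩
    | one => exact ⟨0, (CE.xu_zero r).symm⟩
    | mul x y _ _ ihx ihy =>
      obtain ⟨v, rfl⟩ := ihx
      obtain ⟨w, rfl⟩ := ihy
      exact ⟨v + w, CE.xu_add r v w⟩
    | inv x _ ih =>
      obtain ⟨v, rfl⟩ := ih
      exact ⟨-v, CE.xu_inv r v⟩
  obtain ⟨v, rfl⟩ := hb'
  rcases zero_or_one v with rfl | rfl
  · rw [CE.xu_zero, mul_one] at hab
    exact absurd (hab ▸ ha) hnot
  · exact ⟨a, ha, hab.symm⟩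

theorem refl_ne_self {j r : ℕ} (hc : chevE8.cartan j r < 0) (hj : j < 8) : r ≠ chevE8.simple j := by
  intro e
  rw [e, CE.cartan_diag j hj] at hc
  omega

theorem inf_layer_bot {K : Subgroup GE}
    (hnorm : ∀ u ∈ chevE8.posUnipotent (ZMod 2), ∀ x ∈ K, u * x * u⁻¹ ∈ K)
    (hno : ∀ r < 240, CE.xu r 1 ∉ K) :
    ∀ (N : ℕ) (m : ℤ), 1 ≤ m → CE.htBound < m + N → K ⊓ sp (lay m) = ⊥ := by
  intro N
  induction N with
  | zero =>
    intro m _ hm
    rw [eq_bot_iff]
    refine inf_le_right.trans (CE.span_le fun r hr t => ?_)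
    have := CE.ht_le_bound (r := r) hr.1.1
    have := hr.2
    omega
  | succ N ih =>
    intro m hm1 hm
    have hnext := ih (m + 1) (by omega) (by omega)
    rw [eq_bot_iff]
    intro z hz
    obtain ⟨hzK, hzL⟩ := Subgroup.mem_inf.mp hz
    rw [Subgroup.mem_bot]
    by_contra hne
    by_cases hn : z ∈ sp (lay (m + 1))
    · exact hne (Subgroup.mem_bot.mp (hnext ▸ Subgroup.mem_inf.mpr ⟨hzK, hn⟩))
    obtain ⟨r, hr, hrm, -, a, ha, rfl⟩ := exists_coord hzL hn
    rcases top_data r hr.1 hr with ⟨j, hj, hc⟩ | ⟨-, htop⟩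
    · obtain ⟨hc1, hterms⟩ := up_data j hj r hr.1 hc hr
      set p := chevE8.simple j with hp
      have hpp : chevE8.IsPosRoot p := CE.pos_simple hj
      have hrp : r ≠ p := refl_ne_self hc hj
      set c := chevE8.reflectRoot j r with hcdef
      have hcpos : chevE8.IsPosRoot c := CE.pos_refl hj hr hrp
      have hcht : CE.ht c = m + 1 := by rw [hcdef, CE.ht_refl (i := j) hj hr.1, hc1, hrm]; ring
      set P4 : ℕ → Prop := fun s => lay (m + 1) s ∧ s ≠ c with hP4
      have hup4 : UpSet P4 := upSet_drop (m := m + 1) (r := c) hcht.le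
      set x := CE.xu p (1 : ZMod 2) with hx
      have hxU : x ∈ chevE8.posUnipotent (ZMod 2) := CE.xu_mem_pos hpp 1
      set δ : GE → GE := fun y => y⁻¹ * (x * y * x⁻¹) with hδ
      have hsup : sp (fun s => lay m s ∧ s ≠ r) ≤ chevE8.posUnipotent (ZMod 2) :=
        CE.span_le fun s hs v => CE.xu_mem_pos hs.1.1 v
      have hT : ∀ y ∈ sp (fun s => lay m s ∧ s ≠ r), δ y ∈ sp P4 := by
        intro y hy
        induction hy using Subgroup.closure_induction with
        | mem g hg =>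
          obtain ⟨s, v, hs, e⟩ := hg
          rw [CE.eq_xu.mp e]
          simp only [hδ, hx]
          by_cases hsp : s = p
          · rw [hsp, CE.xu_inv, CE.xu_inv, CE.xu_add, CE.xu_add, CE.xu_add,
              show -v + (1 + v + -1) = (0 : ZMod 2) by ring, CE.xu_zero]
            exact one_mem _
          rw [CE.conj_xu hpp.1 hs.1.1.1 hsp (fun e => CE.not_pos_and_neg hs.1.1 (e ▸ CE.negRoot_neg hpp)),
            inv_mul_cancel_left]
          refine CE.wu_mem_span _ ?_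
          intro q hq
          obtain ⟨d, hd, rfl⟩ := List.mem_map.mp hq
          obtain ⟨h1, h2, -⟩ := comm_ht hpp hs.1.1 hd
          have hsm := hs.1.2
          refine ⟨⟨h1, show m + 1 ≤ CE.ht d.1 by omega⟩, fun e => hs.2 ?_⟩
          obtain ⟨k1, k2, k3⟩ := CE.commTerms_ht hpp.1 hs.1.1.1 d hd
          obtain ⟨-, -, k4⟩ := CE.commTerms_coef hpp.1 hs.1.1.1 d hd
          rw [e, hcht, hp, CE.ht_simple hj] at k3
          have kx : (1 : ℤ) ≤ (d.2.2.1 : ℤ) := by exact_mod_cast k1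
          have ky : (1 : ℤ) ≤ (d.2.2.2 : ℤ) := by exact_mod_cast k2
          have ey : (d.2.2.2 : ℤ) = 1 := by nlinarith
          have ex : (d.2.2.1 : ℤ) = 1 := by rw [ey] at k3; omega
          refine CE.coef_inj s hs.1.1.1 r hr.1 fun k hk => ?_
          have := k4 k hk
          rw [e, hcdef, CE.coef_refl j hj r hr.1 k hk, hc1, hp, CE.coef_simple j hj k hk, ex, ey] at this
          split_ifs at this <;> omega
        | one => simp [hδ]
        | mul y w hy hw ihy ihw =>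
          have e : δ (y * w) = (w⁻¹ * δ y * w⁻¹⁻¹) * δ w := by simp only [hδ]; group
          rw [e]
          exact mul_mem ((Subgroup.mem_normalizer_iff.mp (pos_normalises hup4 (inv_mem (hsup hw))) _).mp ihy) ihw
        | inv y hy ih =>
          have e : δ y⁻¹ = y * (δ y)⁻¹ * y⁻¹ := by simp only [hδ]; group
          rw [e]
          exact (Subgroup.mem_normalizer_iff.mp (pos_normalises hup4 (hsup hy)) _).mp (inv_mem ih)
      obtain ⟨d, hd⟩ : ∃ v : ZMod 2, v ≠ 0 ∧ δ (CE.xu r 1) = CE.xu c v := by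
        simp only [hδ, hx]
        rw [CE.conj_xu hpp.1 hr.1 hrp (fun e => CE.not_pos_and_neg hr (e ▸ CE.negRoot_neg hpp)), inv_mul_cancel_left]
        rcases hl : chevE8.commTerms p r with _ | ⟨t, _ | ⟨t', l⟩⟩
        · rw [hp] at hl; rw [hl] at hterms; simp at hterms
        · rw [hp] at hl
          rw [hl] at hterms
          simp only [List.map_cons, List.map_nil, List.cons.injEq, Prod.mk.injEq, and_true] at hterms
          obtain ⟨e1, e2, e3⟩ := hterms
          refine ⟨(t.2.1 : ZMod 2), ?_, ?_⟩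
          · intro h0
            rw [ZMod.intCast_zmod_eq_zero_iff_dvd] at h0
            omega
          · rw [ChevalleyDatum.commWord]
            rw [← hp] at hl
            rw [hl]
            simp [CE.wu_cons, Cert.wu, e1, e3, ← hcdef]
        · rw [hp] at hl; rw [hl] at hterms; simp at hterms
      have hzK' : δ (a * CE.xu r 1) ∈ K := mul_mem (inv_mem hzK) (hnorm x hxU _ hzK)
      have hr1 : CE.xu r (1 : ZMod 2) ∈ chevE8.posUnipotent (ZMod 2) := CE.xu_mem_pos hr 1
      have hmid : (CE.xu r 1)⁻¹ * δ a * (CE.xu r 1)⁻¹⁻¹ ∈ sp P4 :=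
        (Subgroup.mem_normalizer_iff.mp (pos_normalises hup4 (inv_mem hr1)) _).mp (hT a ha)
      have eprod : δ (a * CE.xu r 1) = ((CE.xu r 1)⁻¹ * δ a * (CE.xu r 1)⁻¹⁻¹) * CE.xu c d := by
        rw [← hd.2]; simp only [hδ]; group
      have h1 : δ (a * CE.xu r 1) = 1 := by
        rw [← Subgroup.mem_bot, ← hnext]
        refine Subgroup.mem_inf.mpr ⟨hzK', ?_⟩
        rw [eprod]
        exact mul_mem (CE.span_mono (Q := lay (m + 1)) (fun s hs => hs.1) hmid)
          (CE.xu_mem_span (P := lay (m + 1)) ⟨hcpos, hcht.ge⟩ _)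
      rw [eprod, mul_eq_one_iff_inv_eq] at h1
      exact (mem_of_xu_mem hup4 hcpos hd.1 (h1 ▸ inv_mem hmid)).2 rfl
    · have ha1 : a = 1 := by
        have hbot : sp (fun s => lay m s ∧ s ≠ r) ≤ ⊥ := by
          refine CE.span_le fun s hs v => ?_
          have h1 : CE.ht s < CE.ht r := htop s hs.1.1.1 hs.1.1 hs.2
          have := hs.1.2
          omega
        exact Subgroup.mem_bot.mp (hbot ha)
      rw [ha1, one_mul] at hzK
      exact hno r hr.1 hzK

theorem A_six : A 6 = ⊥ := by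
  set G := chevE8.group (ZMod 2)
  set K := (A 6).map G.subtype with hK
  have hsub : ∀ g ∈ A 6, g ∈ M1 := fun g hg => by
    rw [A_succ] at hg
    exact (mem_core.mp hg).1
  have hnorm : ∀ p ∈ chevE8.parabolicSubgroup (ZMod 2) J3, ∀ x ∈ K, p * x * p⁻¹ ∈ K := by
    rintro p hp x ⟨g, hg, rfl⟩
    have hpG : p ∈ G := CE.parabolic_le_group J3 hp
    refine ⟨⟨p, hpG⟩ * g * (⟨p, hpG⟩ : Gp)⁻¹, ?_, by
      simp only [map_mul, map_inv, Subgroup.subtype_apply]⟩
    rw [SetLike.mem_coe, A_succ] at hg ⊢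
    exact core_conj (Subgroup.mem_subgroupOf.mpr hp) hg
  have hUP : chevE8.posUnipotent (ZMod 2) ≤ chevE8.parabolicSubgroup (ZMod 2) J3 :=
    fun u hu => CE.borel_le_parabolic J3 (CE.pos_le_borel hu)
  have hno : ∀ r < 240, CE.xu r 1 ∉ K := by
    rintro r hr ⟨g, hg, e⟩
    have : g = X r := Subtype.ext e
    have h1 := (upper 6).1 r hr (this ▸ hg)
    have h2 := (level_data r hr).1
    simp only [bd] at h1
    omega
  have hU : K ⊓ chevE8.posUnipotent (ZMod 2) = ⊥ := by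
    have h := inf_layer_bot (K := K) (fun u hu => hnorm u (hUP hu)) hno (CE.htBound.toNat + 1) 1 le_rfl (by omega)
    rw [eq_bot_iff, ← h]
    refine inf_le_inf_left _ ?_
    show sp chevE8.IsPosRoot ≤ _
    exact CE.span_mono fun r hr => ⟨hr, CE.ht_pos hr⟩
  obtain ⟨M, hM⟩ := exists_cox (D := chevE8) (by simp)
  rw [eq_bot_iff]
  intro g hg
  have hgK : (g : GE) ∈ K := ⟨g, hg, rfl⟩
  have hgP : (g : GE) ∈ chevE8.parabolicSubgroup (ZMod 2) J3 := Subgroup.mem_subgroupOf.mp (hsub g hg)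
  have hcent : ∀ r, LeadWork.ParabolicConstrained.Out chevE8 J3 r → ∀ t : ZMod 2,
      (g : GE) * CE.xu r t = CE.xu r t * (g : GE) := by
    intro r hr t
    have hxQ : CE.xu r t ∈ chevE8.unipotentRadical (ZMod 2) J3 := by
      rw [CE.radical_eq]
      exact CE.xu_mem_span (P := fun r => chevE8.IsPosRoot r ∧ ¬ chevE8.InRootSub J3 r) hr t
    have hxU : CE.xu r t ∈ chevE8.posUnipotent (ZMod 2) := CE.xu_mem_pos hr.1 t
    have h1 : (g : GE) * CE.xu r t * (g : GE)⁻¹ * (CE.xu r t)⁻¹ ∈ K ⊓ chevE8.posUnipotent (ZMod 2) := by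
      refine Subgroup.mem_inf.mpr ⟨?_, ?_⟩
      · have := mul_mem hgK (hnorm _ (hUP hxU) _ (inv_mem hgK))
        convert this using 1
        group
      · refine mul_mem ?_ (inv_mem hxU)
        have hh := (Subgroup.mem_normalizer_iff.mp (CE.parabolic_le_normalizer J3 hgP) _).mp hxQ
        rw [CE.radical_eq] at hh
        exact CE.span_mono (Q := chevE8.IsPosRoot) (fun s hs => hs.1) hh
    rw [hU, Subgroup.mem_bot, mul_inv_eq_one, mul_inv_eq_iff_eq_mul] at h1
    exact h1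
  have hgU := LeadWork.ParabolicConstrained.centralizes_mem_pos CE J3 hM
    (LeadWork.ParabolicConstrained.extends_all (by simp)) (i := 3) (by decide) (fun h => h rfl) g.2 hcent
  have : (g : GE) ∈ K ⊓ chevE8.posUnipotent (ZMod 2) := Subgroup.mem_inf.mpr ⟨hgK, hgU⟩
  rw [hU, Subgroup.mem_bot] at this
  rw [Subgroup.mem_bot]
  exact Subtype.ext this

end Cfsg.Agent.IterCores
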