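import Cfsg.Agent.Chev.Parabolic
import Cfsg.Agent.Chev.VerifyE8
import Mathlib

/-!
Tabulated facts about the grading of the roots of type E8 by the coefficient of the branch node.
-/

set_option autoImplicit false

namespace Cfsg.Agent.IterCores

open Cfsg.Lie Cfsg.Agent.Chev

/-- The coefficient of the branch node. -/
noncomputable def lev (r : ℕ) : ℤ := tabE8.coefI r 3

/-- The height. -/
noncomputable def hti (r : ℕ) : ℤ := ∑ j ∈ Finset.range 8, tabE8.coefI r j

theorem down_data : ∀ r < 240, 0 ≤ lev r →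
    (∃ j < 8, j ≠ 3 ∧ 0 < chevE8.cartan j r) ∨
      (lev (chevE8.reflectRoot 3 r) < lev r ∧ (lev r ≤ 1 → lev (chevE8.reflectRoot 3 r) < 0)) := by
  decide +kernel

theorem level_data : ∀ r < 240, lev r ≤ 6 ∧ (1 ≤ lev r → chevE8.IsPosRoot r) ∧
    (2 ≤ lev r → lev r - 1 ≤ lev (chevE8.reflectRoot 3 r)) := by
  decide +kernel

theorem top_data : ∀ r < 240, chevE8.IsPosRoot r →
    (∃ j < 8, chevE8.cartan j r < 0) ∨
      (lev r = 6 ∧ ∀ s < 240, chevE8.IsPosRoot s → s ≠ r → hti s < hti r) := by
  decide +kernel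

theorem exists_six : ∃ r < 240, lev r = 6 := by decide +kernel

set_option synthInstance.maxSize 2000 in
set_option synthInstance.maxHeartbeats 200000 in
theorem up_data : ∀ j < 8, ∀ r < 240, chevE8.cartan j r < 0 → chevE8.IsPosRoot r →
    chevE8.cartan j r = -1 ∧
      (chevE8.commTerms (chevE8.simple j) r).map (fun t => (t.1, t.2.1 % 2, t.2.2)) =
        [(chevE8.reflectRoot j r, 1, 1, 1)] := by
  decide +kernel

end Cfsg.Agent.IterCores
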