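import Cfsg.Agent.IterCores.Data
import Cfsg.Agent.LeadWork.ParabolicConstrained
import Cfsg.Agent.Chev.Simple
import Cfsg.Agent.Chev.Perfect
import Mathlib

/-!
The iterated cores of the maximal parabolic subgroup of the branch node of `E8(2)` and a neighbour.
-/

set_option autoImplicit false

namespace Cfsg.Agent.IterCores

open Cfsg.Lie Cfsg.Agent.Chev

/-- The group `E8(2)`. -/
abbrev Gp := ↥(chevE8.group (ZMod 2))

/-- The certificate. -/
noncomputable abbrev CE : Cert.{0} chevE8 := certE8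

theorem coef_lev (r : ℕ) : CE.coef r 3 = lev r := rfl

theorem ht_hti (r : ℕ) : CE.ht r = hti r := rfl

theorem eq_one_of_ne_zero {c : ZMod 2} (h : c ≠ 0) : c = 1 := by
  revert h; revert c; decide

theorem zero_or_one (c : ZMod 2) : c = 0 ∨ c = 1 := by
  revert c; decide

/-- All nodes but the branch node. -/
def J3 : Set ℕ := {i | i ≠ 3}

theorem inSub_iff {r : ℕ} : chevE8.InRootSub J3 r ↔ r < 240 ∧ lev r = 0 := by
  rw [CE.inRootSub_iff]
  constructor
  · exact fun h => ⟨h.1, h.2 3 (by decide) (fun h3 => h3 rfl)⟩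
  · rintro ⟨hr, h0⟩
    refine ⟨hr, fun k _ hk => ?_⟩
    have : k = 3 := by_contra hk
    subst this; exact h0

theorem lev_nonneg {r : ℕ} (h : chevE8.IsPosRoot r) : 0 ≤ lev r :=
  (CE.pos_iff r h.1).mp h 3 (by decide)

theorem lev_refl {j r : ℕ} (hj : j < 8) (hne : j ≠ 3) (hr : r < 240) :
    lev (chevE8.reflectRoot j r) = lev r := by
  show CE.coef (chevE8.reflectRoot j r) 3 = CE.coef r 3
  rw [CE.coef_refl j hj r hr 3 (by decide), if_neg (Ne.symm hne), sub_zero]

theorem refl_lt {j r : ℕ} (hj : j < 8) (hr : r < 240) : chevE8.reflectRoot j r < 240 := CE.refl_lt j hj r hr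

/-! ### Elements -/

/-- The root element. -/
noncomputable def X (r : ℕ) : Gp := ⟨CE.xu r 1, CE.xu_mem_group r 1⟩

/-- The element of a simple reflection. -/
noncomputable def Nu (j : ℕ) : Gp := ⟨CE.nu (chevE8.simple j) 1, CE.nu_mem_group _ _⟩

theorem nu_X {j r : ℕ} (hj : j < 8) (hr : r < 240) :
    Nu j * X r * (Nu j)⁻¹ = X (chevE8.reflectRoot j r) := by
  obtain ⟨c, hc, e⟩ := CE.conj_xu_simple (F := ZMod 2) (i := j) hj (r := r) hr
  apply Subtype.ext
  simp only [Nu, X, Subgroup.coe_mul, Subgroup.coe_inv]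
  rw [e, eq_one_of_ne_zero hc, one_mul]

theorem nu_X' {j r : ℕ} (hj : j < 8) (hr : r < 240) :
    Nu j * X (chevE8.reflectRoot j r) * (Nu j)⁻¹ = X r := by
  rw [nu_X hj (refl_lt hj hr), CE.refl_refl (i := j) hj hr]

/-- The parabolic subgroup. -/
noncomputable def M1 : Subgroup Gp :=
  (chevE8.parabolicSubgroup (ZMod 2) J3).subgroupOf (chevE8.group (ZMod 2))

/-- Its neighbour. -/
noncomputable def M2 : Subgroup Gp := M1.map (MulAut.conj (Nu 3)).toMonoidHom

theorem mem_M2 {h : Gp} : h ∈ M2 ↔ ∃ m ∈ M1, Nu 3 * m * (Nu 3)⁻¹ = h := Iff.rfl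

theorem nu_mem_M1 {j : ℕ} (hj : j < 8) (hne : j ≠ 3) : Nu j ∈ M1 :=
  Subgroup.mem_subgroupOf.mpr (CE.nu_mem_parabolic (J := J3) hj hne)

theorem X_mem_M1 {r : ℕ} (hr : r < 240) (h : 0 ≤ lev r) : X r ∈ M1 := by
  refine Subgroup.mem_subgroupOf.mpr ?_
  rw [CE.parabolic_eq]
  refine Subgroup.mem_sup_right (CE.xu_mem_span ?_ 1)
  by_cases h0 : lev r = 0
  · exact Or.inr (inSub_iff.mpr ⟨hr, h0⟩)
  · exact Or.inl ((level_data r hr).2.1 (by omega))

theorem lev_chain : ∀ r < chevE8.nroots, ∀ s < chevE8.nroots, ∀ q ∈ (chevE8.chainEntry r s).zipIdx,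
    lev q.1.1 = ((q.2 : ℤ) + 1) * lev r + lev s :=
  fun r hr s hs q hq => CE.chain_coef r hr s hs q hq 3 (by decide)

theorem lev_neg : ∀ s < chevE8.nroots, lev (chevE8.neg s) = - lev s :=
  fun s hs => CE.coef_neg s hs 3 (by decide)

theorem parabolic_le_up :
    chevE8.parabolicSubgroup (ZMod 2) J3 ≤ upGroup chevE8 (ZMod 2) (fWt chevE8 lev) 0 := by
  rw [CE.parabolic_eq]
  refine sup_le ?_ (CE.span_le fun r hr t => ?_)
  · intro h hh
    obtain ⟨χ, -, -, hχ⟩ := CE.diagonal_char hh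
    obtain ⟨ψ, -, -, hψ⟩ := CE.diagonal_char (inv_mem hh)
    rw [mem_upGroup, hχ, hψ]
    exact ⟨by exact_mod_cast (isUp_dMat χ).sub isUp_one, by exact_mod_cast (isUp_dMat ψ).sub isUp_one⟩
  · obtain ⟨hrl, h0⟩ : r < 240 ∧ 0 ≤ lev r := by
      rcases hr with hp | hJ
      · exact ⟨hp.1, lev_nonneg hp⟩
      · exact ⟨(inSub_iff.mp hJ).1, (inSub_iff.mp hJ).2.symm.le⟩
    rw [mem_upGroup, CE.xu_inv]
    exact ⟨(CE.isUp_x_general lev_neg lev_chain (r := r) hrl h0 t).mono (by exact_mod_cast h0),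
      (CE.isUp_x_general lev_neg lev_chain (r := r) hrl h0 (-t)).mono (by exact_mod_cast h0)⟩

theorem lev_of_mem_M1 {r : ℕ} (hr : r < 240) (h : X r ∈ M1) : 0 ≤ lev r := by
  by_contra hneg
  have hu := (mem_upGroup.mp (parabolic_le_up (Subgroup.mem_subgroupOf.mp h))).1
  have hn : chevE8.neg r < chevE8.nroots := CE.neg_lt r hr
  have he := hu (Sum.inr ⟨r, hr⟩) (Sum.inr ⟨chevE8.neg r, hn⟩) (by
    simp only [fWt, Sum.elim_inr, lev_neg r hr]
    push_cast
    omega)
  have hne : (⟨r, hr⟩ : Fin chevE8.nroots) ≠ ⟨chevE8.neg r, hn⟩ := by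
    intro e
    have e' : r = chevE8.neg r := Fin.mk.inj_iff.mp e
    exact CE.neg_ne r hr e'.symm
  have hx : ((X r : Gp) : GL chevE8.Idx (ZMod 2)).1 (Sum.inr ⟨r, hr⟩) (Sum.inr ⟨chevE8.neg r, hn⟩) = -(1 ^ 2) := by
    rw [X, CE.coe_xu]
    have e1 : chevE8.x (ZMod 2) r 1 = chevE8.xMat (ZMod 2) ⟨r, hr⟩ 1 := dif_pos hr
    rw [e1]
    simp [ChevalleyDatum.xMat, ChevalleyDatum.neg, Ne.symm hne, hne, CE.neg_ne r hr]
  rw [Matrix.sub_apply, hx, Matrix.one_apply_ne (by simpa using hne), sub_zero] at he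
  exact absurd he (by decide)

theorem M1_ne_top : M1 ≠ ⊤ := by
  intro h
  have h3 := lev_of_mem_M1 (r := chevE8.neg (chevE8.simple 3))
    (CE.neg_lt _ (CE.simple_lt 3 (by decide))) (h ▸ Subgroup.mem_top _)
  rw [lev_neg _ (CE.simple_lt 3 (by decide)), show lev (chevE8.simple 3) = CE.coef (chevE8.simple 3) 3 from rfl,
    CE.coef_simple 3 (by decide) 3 (by decide), if_pos rfl] at h3
  omega

theorem M1_coatom : IsCoatom M1 := by
  refine ⟨M1_ne_top, fun H hH => ?_⟩
  set K := H.map (chevE8.group (ZMod 2)).subtype with hK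
  have hKG : K ≤ chevE8.group (ZMod 2) := Subgroup.map_subtype_le _
  have hPK : chevE8.parabolicSubgroup (ZMod 2) J3 ≤ K := fun g hg =>
    ⟨⟨g, CE.parabolic_le_group J3 hg⟩, hH.le (Subgroup.mem_subgroupOf.mpr hg), rfl⟩
  obtain ⟨M, hM⟩ := exists_cox (D := chevE8) (by simp)
  by_cases h3 : CE.nu (chevE8.simple 3) (1 : ZMod 2) ∈ K
  · rw [eq_top_iff]
    intro g _
    have hall : chevE8.parabolicSubgroup (ZMod 2) Set.univ ≤ K := by
      refine CE.parabolic_le ((CE.borel_le_parabolic J3).trans hPK) fun j hj _ => ?_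
      by_cases e : j = 3
      · subst e; exact h3
      · exact hPK (CE.nu_mem_parabolic hj e)
    have hG : chevE8.group (ZMod 2) ≤ K := by
      refine le_trans ?_ hall
      rw [CE.parabolic_eq, CE.group_eq_closure, Subgroup.closure_le]
      rintro _ ⟨r, hr, t, rfl⟩
      exact Subgroup.mem_sup_right (CE.xu_mem_span (Or.inr ⟨hr, fun i _ hi => absurd (Set.mem_univ i) hi⟩) t)
    obtain ⟨x, hx, e⟩ := hG g.2
    rwa [← Subtype.ext (show (x : GL chevE8.Idx (ZMod 2)) = g from e)]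
  · exfalso
    refine hH.not_ge fun g hg => Subgroup.mem_subgroupOf.mpr ?_
    refine CE.overgroup_le hM ((CE.borel_le_parabolic J3).trans hPK) hKG (CE.borel_le_parabolic J3)
      (fun i hi hmem => CE.nu_mem_parabolic hi ?_) ⟨g, hg, rfl⟩
    rintro rfl
    exact h3 hmem

theorem M1_core : M1.normalCore = ⊥ := by
  obtain ⟨M, hM⟩ := exists_cox (D := chevE8) (by simp)
  obtain ⟨pa, hpa⟩ := exists_tree (D := chevE8) (by simp)
  haveI := (CE.isSimple_group hM hpa (by decide) (CE.commutator_eq_top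
    (group_perfect_of_mem (F := ZMod 2) CE (by simp) fun h => by
      rcases h with h | h
      · exact absurd (congrArg ChevalleyDatum.rank h) (by decide)
      · exact absurd (congrArg ChevalleyDatum.rank h) (by decide)))).1
  rcases (Subgroup.normalCore_normal M1).eq_bot_or_eq_top with h | h
  · exact h
  · exact absurd (top_le_iff.mp (h ▸ Subgroup.normalCore_le M1)) M1_ne_top

theorem M1_ne_M2 : M1 ≠ M2 := by
  intro h
  have hs := CE.simple_lt 3 (by decide)
  have hl : lev (chevE8.simple 3) = 1 := by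
    show CE.coef (chevE8.simple 3) 3 = 1
    rw [CE.coef_simple 3 (by decide) 3 (by decide), if_pos rfl]
  have hm : X (chevE8.neg (chevE8.simple 3)) ∈ M2 :=
    mem_M2.mpr ⟨X (chevE8.simple 3), X_mem_M1 hs (by omega), by
      rw [nu_X (by decide) hs, CE.refl_simple (by decide)]⟩
  have h3 := lev_of_mem_M1 (CE.neg_lt _ hs) (h ▸ hm)
  rw [lev_neg _ hs] at h3
  omega

/-! ### The sequences -/

theorem mem_core {H : Type*} [Group H] {M Y : Subgroup H} {h : H} :
    h ∈ (Y.subgroupOf M).normalCore.map M.subtype ↔ h ∈ M ∧ ∀ m ∈ M, m * h * m⁻¹ ∈ Y := by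
  constructor
  · rintro ⟨x, hx, rfl⟩
    exact ⟨x.2, fun m hm => Subgroup.mem_subgroupOf.mp (hx ⟨m, hm⟩)⟩
  · rintro ⟨hM, h'⟩
    exact ⟨⟨h, hM⟩, fun b => Subgroup.mem_subgroupOf.mpr (h' b b.2), rfl⟩

theorem core_le {H : Type*} [Group H] {M Y : Subgroup H} :
    (Y.subgroupOf M).normalCore.map M.subtype ≤ Y := fun h hh => by
  simpa using (mem_core.mp hh).2 1 (one_mem _)

theorem core_conj {H : Type*} [Group H] {M Y : Subgroup H} {h m : H} (hm : m ∈ M)
    (hh : h ∈ (Y.subgroupOf M).normalCore.map M.subtype) :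
    m * h * m⁻¹ ∈ (Y.subgroupOf M).normalCore.map M.subtype := by
  obtain ⟨h1, h2⟩ := mem_core.mp hh
  refine mem_core.mpr ⟨mul_mem (mul_mem hm h1) (inv_mem hm), fun n hn => ?_⟩
  have := h2 (n * m) (mul_mem hn hm)
  convert this using 1
  group

/-- The two sequences of iterated cores. -/
noncomputable def cores : ℕ → Subgroup Gp × Subgroup Gp
  | 0 => (M1, M2)
  | i + 1 => ((((cores i).1 ⊓ (cores i).2).subgroupOf M1).normalCore.map M1.subtype,
      (((cores i).1 ⊓ (cores i).2).subgroupOf M2).normalCore.map M2.subtype)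

noncomputable def A (i : ℕ) : Subgroup Gp := (cores i).1

noncomputable def B (i : ℕ) : Subgroup Gp := (cores i).2

theorem A_succ (i : ℕ) : A (i + 1) = ((A i ⊓ B i).subgroupOf M1).normalCore.map M1.subtype := rfl

theorem B_succ (i : ℕ) : B (i + 1) = ((A i ⊓ B i).subgroupOf M2).normalCore.map M2.subtype := rfl

/-- The roots of level at least `k`. -/
def outLev (k : ℤ) (r : ℕ) : Prop := chevE8.IsPosRoot r ∧ k ≤ lev r

/-- The terms of the descending central series of the radical. -/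
noncomputable def L (k : ℤ) : Subgroup Gp :=
  (spanGroup chevE8 (ZMod 2) (outLev k)).subgroupOf (chevE8.group (ZMod 2))

theorem X_mem_L {k : ℤ} {r : ℕ} (hr : r < 240) (hk : 1 ≤ k) (h : k ≤ lev r) : X r ∈ L k :=
  Subgroup.mem_subgroupOf.mpr
    (CE.xu_mem_span (P := outLev k) ⟨(level_data r hr).2.1 (by omega), h⟩ 1)

theorem L_le {k : ℤ} {K : Subgroup Gp} (h : ∀ r < 240, k ≤ lev r → X r ∈ K) : L k ≤ K := by
  intro g hg
  have h1 : spanGroup chevE8 (ZMod 2) (outLev k) ≤ K.map (chevE8.group (ZMod 2)).subtype := by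
    refine CE.span_le fun r hr t => ?_
    rcases zero_or_one t with rfl | rfl
    · rw [CE.xu_zero]; exact one_mem _
    · exact ⟨X r, h r hr.1.1 hr.2, rfl⟩
  exact (Subgroup.mem_map_iff_mem Subtype.val_injective).mp (h1 (Subgroup.mem_subgroupOf.mp hg))

theorem L_normal {k : ℤ} (hk : 1 ≤ k) {m y : Gp} (hm : m ∈ M1) (hy : y ∈ L k) : m * y * m⁻¹ ∈ L k := by
  have hN : chevE8.parabolicSubgroup (ZMod 2) J3 ≤
      Subgroup.normalizer (spanGroup chevE8 (ZMod 2) (outLev k) : Set (GL chevE8.Idx (ZMod 2))) := by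
    refine CE.parabolic_le (sup_le ?_ (CE.diag_normalises _ fun r hr => hr.1.1)) fun j hj hjJ => ?_
    · show spanGroup chevE8 (ZMod 2) chevE8.IsPosRoot ≤ _
      refine CE.span_le fun a ha t => ?_
      have key : ∀ (t : ZMod 2) (s : ℕ), outLev k s → ∀ v : ZMod 2,
          CE.xu a t * CE.xu s v * (CE.xu a t)⁻¹ ∈ spanGroup chevE8 (ZMod 2) (outLev k) := by
        intro t s hs v
        by_cases he : s = a
        · subst he
          rw [CE.xu_inv, CE.xu_add, CE.xu_add]
          exact CE.xu_mem_span hs _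
        rw [CE.conj_xu ha.1 hs.1.1 he (fun e => CE.not_pos_and_neg hs.1 (e ▸ CE.negRoot_neg ha))]
        refine mul_mem (CE.xu_mem_span hs _) (CE.wu_mem_span _ ?_)
        intro p hp
        obtain ⟨c, hc, rfl⟩ := List.mem_map.mp hp
        refine ⟨CE.commTerms_pos ha hs.1 c hc, ?_⟩
        obtain ⟨-, h2, h3⟩ := CE.commTerms_coef ha.1 hs.1.1 c hc
        have e : lev c.1 = (c.2.2.1 : ℤ) * lev a + (c.2.2.2 : ℤ) * lev s := h3 3 (by decide)
        have a1 : 0 ≤ (c.2.2.1 : ℤ) * lev a := mul_nonneg (by omega) (lev_nonneg ha)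
        have a2 : lev s ≤ (c.2.2.2 : ℤ) * lev s := le_mul_of_one_le_left (lev_nonneg hs.1) (by exact_mod_cast h2)
        have := hs.2
        show k ≤ lev c.1
        omega
      refine CE.mem_normalizer_span (key t) fun s hs v => ?_
      have := key (-t) s hs v
      rwa [← CE.xu_inv, inv_inv] at this
    · have hkey : ∀ r, outLev k r → outLev k (chevE8.reflectRoot j r) := fun r hr => by
        have e := lev_refl (r := r) hj hjJ hr.1.1
        have := hr.2
        exact ⟨(level_data _ (refl_lt hj hr.1.1)).2.1 (by omega), by omega⟩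
      refine CE.mem_normalizer_span (fun r hr v => ?_) fun r hr v => ?_
      · obtain ⟨c, -, e⟩ := CE.conj_xu_simple (F := ZMod 2) hj hr.1.1
        rw [e]; exact CE.xu_mem_span (P := outLev k) (hkey r hr) _
      · obtain ⟨c, -, e⟩ := CE.conj_inv_xu_simple (F := ZMod 2) hj hr.1.1
        rw [e]; exact CE.xu_mem_span (P := outLev k) (hkey r hr) _
  exact Subgroup.mem_subgroupOf.mpr
    ((Subgroup.mem_normalizer_iff.mp (hN (Subgroup.mem_subgroupOf.mp hm)) _).mp (Subgroup.mem_subgroupOf.mp hy))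

/-- High levels lie in the iterated cores. -/
theorem low (i : ℕ) : ∀ r < 240, ((i : ℤ) + 1) ≤ lev r → X r ∈ A i ∧ Nu 3 * X r * (Nu 3)⁻¹ ∈ B i := by
  induction i with
  | zero =>
    intro r hr h
    have hm : X r ∈ M1 := X_mem_M1 hr (by push_cast at h; omega)
    exact ⟨hm, mem_M2.mpr ⟨_, hm, rfl⟩⟩
  | succ i ih =>
    have h3 : (3 : ℕ) < 8 := by decide
    have hsub : L ((i : ℤ) + 2) ≤ (A i ⊓ B i) ⊓ (A i ⊓ B i).comap (MulAut.conj (Nu 3)).toMonoidHom := by
      refine L_le fun r hr h => ?_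
      have hd := (level_data r hr).2.2 (by omega)
      obtain ⟨a1, a2⟩ := ih r hr (by omega)
      obtain ⟨b1, b2⟩ := ih (chevE8.reflectRoot 3 r) (refl_lt h3 hr) (by linarith)
      rw [nu_X' h3 hr] at b2
      refine Subgroup.mem_inf.mpr ⟨Subgroup.mem_inf.mpr ⟨a1, b2⟩, ?_⟩
      rw [Subgroup.mem_comap, MulEquiv.coe_toMonoidHom, MulAut.conj_apply, Subgroup.mem_inf]
      refine ⟨?_, a2⟩
      rw [nu_X h3 hr]
      exact b1
    intro r hr h
    push_cast at h
    have hL : X r ∈ L ((i : ℤ) + 2) := X_mem_L hr (by omega) (by omega)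
    have hX : X r ∈ M1 := X_mem_M1 hr (by omega)
    refine ⟨?_, ?_⟩
    · rw [A_succ]
      exact mem_core.mpr ⟨hX, fun m hm => (Subgroup.mem_inf.mp (hsub (L_normal (by omega) hm hL))).1⟩
    · rw [B_succ]
      refine mem_core.mpr ⟨mem_M2.mpr ⟨_, hX, rfl⟩, fun m' hm' => ?_⟩
      obtain ⟨m, hm, rfl⟩ := mem_M2.mp hm'
      have h2 := (Subgroup.mem_inf.mp (hsub (L_normal (by omega) hm hL))).2
      rw [Subgroup.mem_comap] at h2
      convert h2 using 1
      simp only [MulEquiv.coe_toMonoidHom, MulAut.conj_apply]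
      group

/-- The bound on the levels in the cores. -/
def bd : ℕ → ℤ
  | 0 => 0
  | n + 1 => (n : ℤ) + 2

theorem descend (i : ℕ) (Q : Gp → Prop) (hconj : ∀ m ∈ M1, ∀ h, Q h → Q (m * h * m⁻¹))
    (hself : ∀ r < 240, Q (X r) → bd i ≤ lev r)
    (hs : ∀ r < 240, Q (X r) → bd i ≤ lev (chevE8.reflectRoot 3 r)) :
    ∀ r < 240, Q (X r) → bd (i + 1) ≤ lev r := by
  suffices key : ∀ (N : ℕ) r, r < 240 → CE.ht r + CE.htBound < N → Q (X r) → bd (i + 1) ≤ lev r by
    intro r hr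
    exact key ((CE.ht r + CE.htBound).toNat + 1) r hr (by omega)
  intro N
  induction N with
  | zero =>
    intro r hr hN
    have := CE.ht_le_bound (r := chevE8.neg r) (CE.neg_lt r hr)
    rw [CE.ht_neg (r := r) hr] at this
    omega
  | succ N ih =>
    intro r hr hN hQ
    by_contra hlt
    have h1 := hself r hr hQ
    have hb : 0 ≤ bd i := by cases i <;> simp [bd] <;> omega
    rcases down_data r hr (by omega) with ⟨j, hj, hne, hc⟩ | ⟨hd, hd1⟩
    · have hQ' := hconj (Nu j) (nu_mem_M1 hj hne) _ hQ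
      rw [nu_X hj hr] at hQ'
      have := ih _ (refl_lt hj hr) (by rw [CE.ht_refl (i := j) hj hr]; omega) hQ'
      rw [lev_refl hj hne hr] at this
      exact hlt this
    · have h2 := hs r hr hQ
      cases i with
      | zero => simp only [bd] at *; have := hd1 (by omega); omega
      | succ n => simp only [bd] at *; push_cast at *; omega

/-- Only high levels occur in the cores. -/
theorem upper (i : ℕ) : (∀ r < 240, X r ∈ A i → bd i ≤ lev r) ∧
    (∀ r < 240, Nu 3 * X r * (Nu 3)⁻¹ ∈ B i → bd i ≤ lev r) := by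
  induction i with
  | zero =>
    refine ⟨fun r hr h => lev_of_mem_M1 hr h, fun r hr h => lev_of_mem_M1 hr ?_⟩
    obtain ⟨m, hm, e⟩ := mem_M2.mp h
    rwa [← mul_left_cancel (mul_right_cancel e)]
  | succ i ih =>
    have h3 : (3 : ℕ) < 8 := by decide
    constructor
    · refine descend i (fun h => h ∈ A (i + 1)) (fun m hm h hh => ?_) (fun r hr h => ?_) (fun r hr h => ?_)
      · show m * h * m⁻¹ ∈ A (i + 1)
        rw [A_succ] at hh ⊢
        exact core_conj hm hh
      · exact ih.1 r hr (Subgroup.mem_inf.mp (core_le (A_succ i ▸ h))).1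
      · refine ih.2 _ (refl_lt h3 hr) ?_
        rw [nu_X' h3 hr]
        exact (Subgroup.mem_inf.mp (core_le (A_succ i ▸ h))).2
    · refine descend i (fun h => Nu 3 * h * (Nu 3)⁻¹ ∈ B (i + 1)) (fun m hm h hh => ?_) (fun r hr h => ?_)
        (fun r hr h => ?_)
      · show Nu 3 * (m * h * m⁻¹) * (Nu 3)⁻¹ ∈ B (i + 1)
        rw [B_succ] at hh ⊢
        have := core_conj (mem_M2.mpr ⟨m, hm, rfl⟩) hh
        convert this using 1
        group
      · exact ih.2 r hr (Subgroup.mem_inf.mp (core_le (B_succ i ▸ h))).2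
      · have h' := (Subgroup.mem_inf.mp (core_le (B_succ i ▸ h))).1
        rw [nu_X h3 hr] at h'
        exact ih.1 _ (refl_lt h3 hr) h'

theorem A_five : A 5 ≠ ⊥ := by
  obtain ⟨r, hr, h6⟩ := exists_six
  intro h
  have hX := (low 5 r hr (by rw [h6]; norm_num)).1
  rw [h, Subgroup.mem_bot] at hX
  exact one_ne_zero (CE.xu_eq_one hr (congrArg Subtype.val hX))

end Cfsg.Agent.IterCores
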